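import Mathlib
import Cfsg.Agent.Lib.Helper41.CS3.GoodDefs
import Cfsg.Agent.Lib.Helper24.CS3.Basics
import Cfsg.Agent.Lib.Helper71.CS3.Basics

/-!
# CS3 (S4284), part GOOD: package [S5] (Step 5: `G` is covered by the conjugates of `C(a)`).
-/

set_option autoImplicit false

namespace Cfsg.Agent.Lib.Helper93.CS3

open Cfsg.Agent.Lib.Helper81.CS3 Cfsg.Agent.Lib.Helper41.CS3

universe u

/-- `t ∣ n` and `t ∤ m` in a `Conf`. -/
theorem conf_t_not_dvd {G : Type u} [Group G] {m n t : ℕ} {a : G} {A T : Subgroup G}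
    (hyp : Hyp G m n) (conf : Conf n t a A T) : t ∣ n ∧ ¬ t ∣ m := by
  have htp := conf.tp
  obtain ⟨kn, hkn⟩ := conf.tn
  have hn1 := hyp.2.2.1
  have hcop := hyp.2.2.2.1
  have htn : t ∣ n := by
    rw [hkn]
    have : kn ≠ 0 := by
      rintro rfl
      rw [pow_zero] at hkn; omega
    exact dvd_pow_self t this
  refine ⟨htn, ?_⟩
  intro h
  have := Nat.eq_one_of_dvd_coprimes hcop h htn
  exact htp.one_lt.ne' this

/-- a prime `r ≠ t` dividing `|G|` divides `m` in a `Conf`. -/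
theorem conf_prime_dvd_m {G : Type u} [Group G] [Finite G] {m n t : ℕ} {a : G}
    {A T : Subgroup G} (hyp : Hyp G m n) (conf : Conf n t a A T) {r : ℕ} (hr : r.Prime)
    (hrt : r ≠ t) (hrG : r ∣ Nat.card G) : r ∣ m := by
  have htp := conf.tp
  obtain ⟨kn, hkn⟩ := conf.tn
  have hrmn := Cfsg.Agent.Lib.Helper71.CS3.prime_dvd_mul hyp hr hrG
  rcases (Nat.Prime.dvd_mul hr).1 hrmn with h | h
  · exact h
  · exfalso
    rw [hkn] at h
    have := hr.dvd_of_dvd_pow h
    exact hrt ((Nat.prime_dvd_prime_iff_eq hr htp).1 this)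

/-- conjugating an element of the centralizer. -/
theorem conj_mem_Cn {G : Type u} [Group G] (g u y : G) (hy : y ∈ Cn u) :
    g⁻¹ * y * g ∈ Cn (g⁻¹ * u * g) := by
  rw [Subgroup.mem_centralizer_singleton_iff] at hy ⊢
  calc g⁻¹ * y * g * (g⁻¹ * u * g) = g⁻¹ * (y * u) * g := by group
    _ = g⁻¹ * (u * y) * g := by rw [hy]
    _ = g⁻¹ * u * g * (g⁻¹ * y * g) := by group

/-- if `C(a) ≤ C(u)`, `i(a) = m` and `u` is not central, then `C(u) = C(a)`. -/
theorem Cn_eq_of_le {G : Type u} [Group G] [Finite G] {m n : ℕ} (hyp : Hyp G m n) {a u : G}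
    (ha : ix a = m) (hle : Cn a ≤ Cn u) (hu : u ∉ Subgroup.center G) : Cn u = Cn a := by
  have hm1 := hyp.2.1
  have hn1 := hyp.2.2.1
  have hdvd : ix u ∣ m := by
    rw [← ha]
    exact Subgroup.index_dvd_of_le hle
  have hixu : ix u = m := by
    rcases Cfsg.Agent.Lib.Helper24.CS3.index_mem hyp u with h | h | h
    · exact absurd ((Cfsg.Agent.Lib.Helper71.CS3.idx_eq_one_iff u).1 h) hu
    · exact h
    · exfalso
      have h1 : m * n ∣ m := by
        have h2 : ix u = m * n := h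
        rw [← h2]; exact hdvd
      have h2 : m * n ≤ m := Nat.le_of_dvd (by omega) h1
      nlinarith
  apply le_antisymm _ hle
  have h1 := Subgroup.relIndex_mul_index hle
  have h2 : (Cn u).index = m := hixu
  have h3 : (Cn a).index = m := ha
  rw [h2, h3] at h1
  have h4 : (Cn a).relIndex (Cn u) = 1 := by
    have hm0 : 0 < m := by omega
    exact Nat.eq_of_mul_eq_mul_right hm0 (by rw [h1, one_mul])
  exact Subgroup.relIndex_eq_one.1 h4

theorem pkgS5_of (hSylow : PkgSylow.{u}) (hPrim : PkgPrim.{u}) (hAt : PkgAt.{u}) :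
    PkgS5.{u} := by
  intro G _ _ m n hyp s t a A T hgood conf hS4 x
  have htp := conf.tp
  have hTa : T ≤ Cn a := by rw [← conf.sup]; exact le_sup_right
  obtain ⟨htn, htm⟩ := conf_t_not_dvd hyp conf
  rcases hPrim t htp x with ⟨r, u, hr, hrt, hru, huc, k, hk⟩ | ⟨xt, z, hx, hxt, hz⟩
  · obtain ⟨j, hj⟩ := hru
    have hu1 : u ≠ 1 := by
      rintro rfl
      exact huc (Subgroup.one_mem _)
    have hj0 : j ≠ 0 := by
      rintro rfl
      rw [pow_zero, orderOf_eq_one_iff] at hj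
      exact hu1 hj
    have hrG : r ∣ Nat.card G := by
      have h1 : r ∣ orderOf u := by rw [hj]; exact dvd_pow_self r hj0
      exact h1.trans (orderOf_dvd_natCard u)
    have hrm : r ∣ m := conf_prime_dvd_m hyp conf hr hrt hrG
    have hixu : ix u = m := by
      rcases Cfsg.Agent.Lib.Helper24.CS3.index_mem hyp u with h | h | h
      · exact absurd ((Cfsg.Agent.Lib.Helper71.CS3.idx_eq_one_iff u).1 h) huc
      · exact h
      · exact absurd h (hS4 r u hr hrm ⟨j, hj⟩)
    have hnd : ¬ t ∣ (Cn u).index := by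
      have : (Cn u).index = m := hixu
      rw [this]; exact htm
    obtain ⟨g, hg⟩ := hSylow t htp T (Cn u) conf.pT hnd
    have hu'T : g⁻¹ * u * g ∈ Subgroup.centralizer (T : Set G) := by
      rw [Subgroup.mem_centralizer_iff]
      intro y hy
      have h1 := hg y hy
      rw [Subgroup.mem_centralizer_singleton_iff] at h1
      calc y * (g⁻¹ * u * g) = g⁻¹ * (g * y * g⁻¹ * u) * g := by group
        _ = g⁻¹ * (u * (g * y * g⁻¹)) * g := by rw [h1]
        _ = g⁻¹ * u * g * y := by group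
    have hu'a : g⁻¹ * u * g ∈ Cn a := conf.cent hu'T
    have hu'prim : Prim r (g⁻¹ * u * g) := by
      refine ⟨j, ?_⟩
      rw [← hj]
      have hsc : SemiconjBy g⁻¹ u (g⁻¹ * u * g) := by
        unfold SemiconjBy; group
      exact (hsc.orderOf_eq).symm
    have hle : Cn a ≤ Cn (g⁻¹ * u * g) := hAt n t a A T conf r _ hr hrt hu'prim hu'a
    have hu'nc : g⁻¹ * u * g ∉ Subgroup.center G := by
      intro hc
      apply huc
      have h1 : g * (g⁻¹ * u * g) * g⁻¹ ∈ Subgroup.center G :=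
        (inferInstance : (Subgroup.center G).Normal).conj_mem _ hc g
      have h2 : g * (g⁻¹ * u * g) * g⁻¹ = u := by group
      rwa [h2] at h1
    have heq : Cn (g⁻¹ * u * g) = Cn a := Cn_eq_of_le hyp hgood.ixa hle hu'nc
    refine ⟨g, ?_⟩
    rw [← heq]
    apply conj_mem_Cn
    rw [Subgroup.mem_centralizer_singleton_iff, hk]
    exact ((Commute.refl x).pow_right k).eq
  · obtain ⟨j, hj⟩ := hxt
    have hK : IsPGroup t (Subgroup.zpowers xt) := by
      have : Fact t.Prime := ⟨htp⟩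
      apply IsPGroup.of_card (n := j)
      rw [Nat.card_zpowers, hj]
    obtain ⟨g, hg⟩ := hSylow t htp (Subgroup.zpowers xt) T hK conf.sylT
    have h1 : g * xt * g⁻¹ ∈ Cn a := hTa (hg xt (Subgroup.mem_zpowers xt))
    have hza : z ∈ Cn a := by
      rw [Subgroup.mem_centralizer_singleton_iff]
      exact ((Subgroup.mem_center_iff.1 hz) a).symm
    refine ⟨g⁻¹, ?_⟩
    have h2 : g⁻¹⁻¹ * x * g⁻¹ = (g * xt * g⁻¹) * z := by
      rw [hx, inv_inv]
      have hzc := (Subgroup.mem_center_iff.1 hz) g⁻¹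
      -- hzc : g⁻¹ * z = z * g⁻¹
      calc g * (xt * z) * g⁻¹ = g * xt * (z * g⁻¹) := by group
        _ = g * xt * (g⁻¹ * z) := by rw [hzc]
        _ = g * xt * g⁻¹ * z := by group
    rw [h2]
    exact Subgroup.mul_mem _ h1 hza

end Cfsg.Agent.Lib.Helper93.CS3
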