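import Mathlib
import Cfsg.Agent.Lib.Helper93.CS3.GoodS5

/-!
# CS3 (S4284), part GOOD: package [S4B] (the Sylow part of Step 4).
-/

set_option autoImplicit false

namespace Cfsg.Agent.Lib.Helper93.CS3

open Cfsg.Agent.Lib.Helper81.CS3 Cfsg.Agent.Lib.Helper41.CS3

universe u

theorem pkgS4b_of (hSylow : PkgSylow.{u}) : PkgS4b.{u} := by
  intro G _ _ m n hyp t a A T conf u hu
  classical
  have htp := conf.tp
  have hfact : Fact t.Prime := ⟨htp⟩
  obtain ⟨kn, hkn⟩ := conf.tn
  obtain ⟨htn, htm⟩ := conf_t_not_dvd hyp conf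
  have hm1 := hyp.2.1
  have hn1 := hyp.2.2.1
  -- a Sylow `t`-subgroup of `C(u)`
  obtain ⟨P⟩ : Nonempty (Sylow t ↥(Cn u)) := inferInstance
  obtain ⟨P', hP'⟩ : ∃ P' : Subgroup G, P' = (P : Subgroup ↥(Cn u)).map (Cn u).subtype :=
    ⟨_, rfl⟩
  have hP'le : P' ≤ Cn u := by rw [hP']; exact Subgroup.map_subtype_le _
  have hP'p : IsPGroup t P' := by rw [hP']; exact P.2.map _
  have hP'card : Nat.card P' = t ^ (Nat.card (Cn u)).factorization t := by
    rw [hP', Subgroup.card_map_of_injective (Subgroup.subtype_injective _)]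
    exact P.card_eq_multiplicity
  obtain ⟨g, hg⟩ := hSylow t htp P' T hP'p conf.sylT
  obtain ⟨T1, hT1⟩ : ∃ T1 : Subgroup G, T1 = P'.map (MulAut.conj g).toMonoidHom := ⟨_, rfl⟩
  have hT1card : Nat.card T1 = Nat.card P' := by
    rw [hT1]
    exact Subgroup.card_map_of_injective (MulAut.conj g).injective
  have hT1mem : ∀ v ∈ T1, ∃ x ∈ P', v = g * x * g⁻¹ := by
    intro v hv
    rw [hT1] at hv
    obtain ⟨x, hx, rfl⟩ := hv
    exact ⟨x, hx, rfl⟩
  -- `|T| = n |P'|`
  obtain ⟨e, he⟩ := IsPGroup.iff_card.1 conf.pT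
  have hcardG1 : Nat.card G = Nat.card T * T.index := (Subgroup.card_mul_index T).symm
  have hcardG2 : Nat.card G = m * n * Nat.card (Cn u) := by
    rw [← Subgroup.card_mul_index (Cn u), show (Cn u).index = m * n from hu]; ring
  have hTn : Nat.card T = n * Nat.card P' := by
    have hi0 : T.index ≠ 0 := Subgroup.index_ne_zero_of_finite
    have hc0 : Nat.card (Cn u) ≠ 0 := Nat.card_pos.ne'
    have hT0 : Nat.card T ≠ 0 := Nat.card_pos.ne'
    have hm0 : m ≠ 0 := by omega
    have hn0 : n ≠ 0 := by omega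
    have h1 : (Nat.card G).factorization t = e := by
      rw [hcardG1, Nat.factorization_mul hT0 hi0, he, htp.factorization_pow]
      simp [Nat.factorization_eq_zero_of_not_dvd conf.sylT]
    have h2 : (Nat.card G).factorization t = kn + (Nat.card (Cn u)).factorization t := by
      rw [hcardG2, Nat.factorization_mul (Nat.mul_ne_zero hm0 hn0) hc0,
        Nat.factorization_mul hm0 hn0, hkn, htp.factorization_pow]
      simp [Nat.factorization_eq_zero_of_not_dvd htm]
    rw [he, hP'card, hkn, ← pow_add]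
    congr 1
    omega
  by_contra hcon
  push Not at hcon
  -- every element of `T1` is central in `T`
  have hcen : ∀ v ∈ T1, v ∈ T ∧ ∀ z ∈ T, v * z = z * v := by
    intro v hv
    obtain ⟨x, hx, rfl⟩ := hT1mem v hv
    have hvT : g * x * g⁻¹ ∈ T := hg x hx
    refine ⟨hvT, ?_⟩
    intro z hz
    by_contra hne
    refine hcon g (g * x * g⁻¹) hvT ⟨z, hz, hne⟩ ?_
    have hxu : x ∈ Cn u := hP'le hx
    rw [Subgroup.mem_centralizer_singleton_iff] at hxu ⊢
    calc g * x * g⁻¹ * (g * u * g⁻¹) = g * (x * u) * g⁻¹ := by group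
      _ = g * (u * x) * g⁻¹ := by rw [hxu]
      _ = g * u * g⁻¹ * (g * x * g⁻¹) := by group
  -- a non-central element of `T`
  have hnab := conf.nab
  unfold Cfsg.Agent.Lib.Helper41.CS3.Ab at hnab
  push Not at hnab
  obtain ⟨y', hy', z', hz', hne⟩ := hnab
  have hcls := conf.cls y' hy' ⟨z', hz', hne⟩
  have hle : T1 ≤ Cn y' ⊓ T := by
    intro v hv
    obtain ⟨hvT, hvc⟩ := hcen v hv
    refine Subgroup.mem_inf.2 ⟨?_, hvT⟩
    rw [Subgroup.mem_centralizer_singleton_iff]
    exact hvc y' hy'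
  have hcard : Nat.card (Cn y' ⊓ T : Subgroup G) ≤ Nat.card T1 := by
    rw [hT1card]
    have h1 : n * Nat.card P' = n * Nat.card (Cn y' ⊓ T : Subgroup G) := by
      rw [← hTn, hcls]
    have hn0 : 0 < n := by omega
    exact (Nat.eq_of_mul_eq_mul_left hn0 h1).ge
  have heq : T1 = Cn y' ⊓ T := Subgroup.eq_of_le_of_card_ge hle hcard
  have hy'1 : y' ∈ T1 := by
    rw [heq]
    refine Subgroup.mem_inf.2 ⟨?_, hy'⟩
    rw [Subgroup.mem_centralizer_singleton_iff]
  exact hne ((hcen y' hy'1).2 z' hz')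

end Cfsg.Agent.Lib.Helper93.CS3
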